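import Groth.Prelude.Def_Dual3
import Groth.Agent.Dcoh.MapDer
import Groth.Agent.Ega3B.FlatRestrict
import Groth.Agent.CycB.StalkExact

/-!
# Stalks of cohomology sheaves on an affine chart

If `K|_{Spec A} ≅ N^~`, then the stalk of `H^i(K)` at the image of `q` is `H^i(N)_q`.
-/

set_option autoImplicit false

universe u

open CategoryTheory CategoryTheory.Limits AlgebraicGeometry

attribute [local instance] HasDerivedCategory.standard

namespace Groth.Agent.Dual.H316.StalkTilde

variable {X : Scheme.{u}}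

/-- `H^i(K|_U) ≅ H^i(K)|_U`. -/
noncomputable def hdRestrict {U : Scheme.{u}} (j : U ⟶ X) [IsOpenImmersion j]
    [PreservesFiniteLimits (Scheme.Modules.restrictFunctor j)] (K : DCoh.D X) (i : ℤ) :
    DCoh.HD ((DCoh.restrictD j).obj K) i ≅ (DCoh.HD K i).restrict j :=
  Dcoh.MapDer.homologyMapDerApp (Scheme.Modules.restrictFunctor j) i K

/-- `H^i(N^~) ≅ H^i(N)^~`. -/
noncomputable def hdTilde {A : CommRingCat.{u}} [PreservesFiniteLimits (tilde.functor A)]
    (N : DerivedCategory (ModuleCat.{u} A)) (i : ℤ) :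
    DCoh.HD ((DCoh.tildeD A).obj N) i ≅
      (tilde.functor A).obj ((DerivedCategory.homologyFunctor (ModuleCat.{u} A) i).obj N) :=
  Dcoh.MapDer.homologyMapDerApp (tilde.functor A) i N

/-- The stalk of `M^~` at `q` is the localization. -/
noncomputable def stalkTildeEquiv {A : CommRingCat.{u}} (M : ModuleCat.{u} A) (q : Spec A) :
    ((tilde.functor A).obj M).presheaf.stalk q ≃+
      LocalizedModule (PrimeSpectrum.asIdeal (R := A) q).primeCompl M :=
  haveI : IsLocalizedModule (PrimeSpectrum.asIdeal (R := A) q).primeCompl (tilde.toStalk M q).hom :=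
    inferInstance
  (IsLocalizedModule.iso (PrimeSpectrum.asIdeal (R := A) q).primeCompl
    (tilde.toStalk M q).hom).symm.toAddEquiv

/-- If `K|_{Spec A} ≅ N^~` then `H^i(K)_{j q} = H^i(N)_q`. -/
theorem nonempty_addEquiv {A : CommRingCat.{u}} (j : Spec A ⟶ X) [IsOpenImmersion j]
    [PreservesFiniteLimits (Scheme.Modules.restrictFunctor j)] [PreservesFiniteLimits (tilde.functor A)]
    (K : DCoh.D X) (N : DerivedCategory (ModuleCat.{u} A))
    (e : (DCoh.restrictD j).obj K ≅ (DCoh.tildeD A).obj N) (q : Spec A) (i : ℤ) :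
    Nonempty ((DCoh.HD K i).presheaf.stalk (j q) ≃+
      LocalizedModule (PrimeSpectrum.asIdeal (R := A) q).primeCompl
        ((DerivedCategory.homologyFunctor (ModuleCat.{u} A) i).obj N)) := by
  let e1 : (DCoh.HD K i).restrict j ≅
      (tilde.functor A).obj ((DerivedCategory.homologyFunctor (ModuleCat.{u} A) i).obj N) :=
    (hdRestrict j K i).symm ≪≫ (DerivedCategory.homologyFunctor _ i).mapIso e ≪≫ hdTilde N i
  exact ⟨(Ega3B.FlatRestrict.stalkEquiv j (DCoh.HD K i) q).symm.trans
    ((CycB.StalkExact.stalkLinEquiv e1 q).toAddEquiv.trans (stalkTildeEquiv _ q))⟩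

theorem nontrivial_iff {A : CommRingCat.{u}} (j : Spec A ⟶ X) [IsOpenImmersion j]
    [PreservesFiniteLimits (Scheme.Modules.restrictFunctor j)] [PreservesFiniteLimits (tilde.functor A)]
    (K : DCoh.D X) (N : DerivedCategory (ModuleCat.{u} A))
    (e : (DCoh.restrictD j).obj K ≅ (DCoh.tildeD A).obj N) (q : Spec A) (i : ℤ) :
    Nontrivial ((DCoh.HD K i).presheaf.stalk (j q)) ↔
      Nontrivial (LocalizedModule (PrimeSpectrum.asIdeal (R := A) q).primeCompl
        ((DerivedCategory.homologyFunctor (ModuleCat.{u} A) i).obj N)) := by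
  obtain ⟨e⟩ := nonempty_addEquiv j K N e q i
  exact e.toEquiv.nontrivial_congr

end Groth.Agent.Dual.H316.StalkTilde
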