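import Groth.Prelude.Def_Dual3
import Groth.Agent.FlatA.FibreDim

/-!
# Local fibre dimensions: comparison of `Dual3.localFibreDim` and `FlatMor.fibreDimAt`, charts

* `localFibreDim_eq`: `Dual3.localFibreDim f x = FlatMor.fibreDimAt f x`.
* `fibreDimAt_of_square`: invariance under passing to opens in source and target.
* `exists_nat_of_le`: a local fibre dimension `≤ n` is a natural number `m ≤ n`.
* `fibreDimAt_le_of_fibreDimLE`.
-/

set_option autoImplicit false

open AlgebraicGeometry CategoryTheory Topology TopologicalSpace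

namespace Groth.Agent.Dual.H316.FibDim

universe u

variable {X Y U V : Scheme.{u}}

theorem localFibreDim_eq (f : X ⟶ Y) (x : X) : Dual3.localFibreDim f x = FlatMor.fibreDimAt f x :=
  (iInf_subtype (p := fun U : (f.fiber (f x)).Opens => f.asFiber x ∈ U)
    (f := fun U => topologicalKrullDim ↥U.1)).symm

/-- Local fibre dimensions do not change when source and target are replaced by opens. -/
theorem fibreDimAt_of_square (f : X ⟶ Y) (g : U ⟶ V) (j : U ⟶ X) (k : V ⟶ Y) [IsOpenImmersion j]
    [IsOpenImmersion k] (w : j ≫ f = g ≫ k) (u : U) :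
    FlatMor.fibreDimAt g u = FlatMor.fibreDimAt f (j u) := by
  rw [FlatA.FibreDim.fibreDimAt_eq, FlatA.FibreDim.fibreDimAt_eq]
  refine (FlatA.FibreDim.localDim_fibre_eq (j := (j : U → X)) (i := (k : V → Y))
    (f := (f : X → Y)) (g := (g : U → V)) j.isOpenEmbedding k.isOpenEmbedding.injective ?_ u).symm
  intro a
  have h2 := congr($w a)
  simp only [Scheme.Hom.comp_apply] at h2
  exact h2

theorem zero_le_localDim {T : Type*} [TopologicalSpace T] (t : T) : 0 ≤ FlatMor.localDim T t := by
  refine VarietyB.DimTop.le_localDim fun W hW => ?_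
  have : Nonempty (IrreducibleCloseds (W : Set T)) :=
    ⟨⟨closure {⟨t, hW⟩}, isIrreducible_singleton.closure, isClosed_closure⟩⟩
  exact Order.krullDim_nonneg

theorem exists_nat_of_le (f : X ⟶ Y) (x : X) (n : ℕ)
    (h : FlatMor.fibreDimAt f x ≤ (n : WithBot ℕ∞)) :
    ∃ m : ℕ, m ≤ n ∧ FlatMor.fibreDimAt f x = (m : WithBot ℕ∞) := by
  have h0 : 0 ≤ FlatMor.fibreDimAt f x := zero_le_localDim _
  revert h h0
  generalize FlatMor.fibreDimAt f x = c
  intro h h0
  induction c using WithBot.recBotCoe with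
  | bot => simp at h0
  | coe c =>
    have h' : c ≤ (n : ℕ∞) := by exact_mod_cast h
    obtain ⟨m, rfl⟩ := ENat.ne_top_iff_exists.mp (ne_top_of_le_ne_top (ENat.natCast_ne_top n) h')
    exact ⟨m, by exact_mod_cast h', rfl⟩

/-- The chart form of a bound of the local fibre dimension. -/
theorem exists_nat_of_chart (f : X ⟶ Y) (g : U ⟶ V) (j : U ⟶ X) (k : V ⟶ Y) [IsOpenImmersion j]
    [IsOpenImmersion k] (w : j ≫ f = g ≫ k) (u : U) (n : ℕ)
    (h : Dual3.localFibreDim f (j u) ≤ (n : WithBot ℕ∞)) :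
    ∃ m : ℕ, m ≤ n ∧ FlatMor.fibreDimAt g u = (m : WithBot ℕ∞) :=
  exists_nat_of_le g u n (by
    rw [fibreDimAt_of_square f g j k w u, ← localFibreDim_eq]
    exact h)

/-- If all fibres have dimension at most `d`, so do all local fibre dimensions on charts. -/
theorem fibreDimAt_le_of_fibreDimLE (f : X ⟶ Y) (g : U ⟶ V) (j : U ⟶ X) (k : V ⟶ Y)
    [IsOpenImmersion j] [IsOpenImmersion k] (w : j ≫ f = g ≫ k) (d : ℕ)
    (h : Dual3.FibreDimLE f d) (u : U) : FlatMor.fibreDimAt g u ≤ (d : WithBot ℕ∞) := by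
  rw [fibreDimAt_of_square f g j k w u]
  exact (VarietyB.DimTop.localDim_le_dim _).trans (h _)

end Groth.Agent.Dual.H316.FibDim
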