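import Groth.Agent.Dcoh.TorAmp
import Groth.Agent.Flat2C.TorAmpRestr
import Groth.Agent.PerfC.RelFlat
import Groth.Agent.Dcoh.StalkMod
import Groth.Agent.Dcoh.LocalD
import Groth.Agent.Ega3B.FlatRestrict

/-!
# Relative flat amplitude is local on the source

`hasRelFlatAmplitudeIn_of_cover`: `f : X ⟶ Y` flat, `K ∈ D(O_X)`. If every point of `X` is in the image of an open
immersion `j : U ⟶ X` such that `K|_U` is represented by a complex of `Y`-flat modules in degrees `[a, b]`, then `K` is
represented by a complex of `Y`-flat modules in degrees `[a, b]`.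
-/

set_option autoImplicit false
universe u

open CategoryTheory CategoryTheory.Limits AlgebraicGeometry

attribute [local instance] HasDerivedCategory.standard

namespace Groth.Agent.Dual.H316.RelFlatCover

open Groth.Agent.Dcoh.LocalD Groth.Agent.Dcoh.StalkMod Groth.Agent.CycB.StalkExact

variable {X Y U : Scheme.{u}}

/-- The stalk functor with values in modules over the local ring of the base. -/
noncomputable def stB (g : U ⟶ Y) (u : U) : U.Modules ⥤ ModuleCat.{u} (Y.presheaf.stalk (g u)) :=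
  stalkMod u ⋙ ModuleCat.restrictScalars (g.stalkMap u).hom

instance (g : U ⟶ Y) (u : U) : (stB g u).Additive := by
  unfold stB; infer_instance

instance (g : U ⟶ Y) (u : U) : PreservesFiniteLimits (stB g u) := by
  unfold stB; exact comp_preservesFiniteLimits _ _

instance (g : U ⟶ Y) (u : U) : PreservesFiniteColimits (stB g u) := by
  unfold stB; exact comp_preservesFiniteColimits _ _

theorem flat_stB_iff (g : U ⟶ Y) (u : U) (M : U.Modules) :
    Module.Flat (Y.presheaf.stalk (g u)) ((stB g u).obj M) ↔ FlatMod.IsFlatOverAt g M u :=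
  Iff.rfl

section General

variable {C : Type*} [Category* C] [Abelian C]

/-- Exact functors commute with the opcycles. -/
noncomputable def mapOpcycles {D : Type*} [Category* D] [Abelian D] (F : C ⥤ D) [F.Additive]
    [PreservesFiniteLimits F] [PreservesFiniteColimits F] (K : CochainComplex C ℤ) (i : ℤ) :
    ((F.mapHomologicalComplex (ComplexShape.up ℤ)).obj K).opcycles i ≅ F.obj (K.opcycles i) :=
  (K.sc i).mapOpcyclesIso F

end General

/-- The stalkwise criterion: if `L` is bounded above with flat terms and near `j u` isomorphic in the derived category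
to a complex of `Y`-flat modules vanishing below `a`, then the cokernel of `L^{a-1} ⟶ L^a` is flat over `Y` at `j u`. -/
theorem isFlatOverAt_opcycles (f : X ⟶ Y) [Flat f] {a b : ℤ} (L : CochainComplex X.Modules ℤ)
    (hL0 : ∀ i, b < i → IsZero (L.X i)) (hLf : ∀ i, FlatMod.IsFlat (L.X i))
    (j : U ⟶ X) [IsOpenImmersion j] (E : CochainComplex U.Modules ℤ)
    (hE0 : DCoh.VanishesOutside E a b) (hEf : ∀ i, FlatMod.IsFlatOver (j ≫ f) (E.X i))
    (e : DCoh.toD U E ≅ (DCoh.restrictD j).obj (DCoh.toD X L)) (u : U) :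
    FlatMod.IsFlatOverAt f (L.opcycles a) (j u) := by
  rw [← Ega3B.FlatRestrict.isFlatOverAt_restrict_iff_comp, ← flat_stB_iff]
  let G := stB (j ≫ f) u
  let L' := ((Scheme.Modules.restrictFunctor j).mapHomologicalComplex (ComplexShape.up ℤ)).obj L
  let P := (G.mapHomologicalComplex (ComplexShape.up ℤ)).obj L'
  let Q := (G.mapHomologicalComplex (ComplexShape.up ℤ)).obj E
  have e1 : DRing.toD P ≅ DRing.toD Q :=
    (G.mapDerivedCategoryFactors.app L').symm ≪≫
      G.mapDerivedCategory.mapIso ((QRestrict j L).symm ≪≫ e.symm) ≪≫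
        G.mapDerivedCategoryFactors.app E
  have hP0 : ∀ i, b < i → IsZero (P.X i) := fun i hi =>
    G.map_isZero ((Scheme.Modules.restrictFunctor j).map_isZero (hL0 i hi))
  have hQ0 : ∀ i, b < i → IsZero (Q.X i) := fun i hi => G.map_isZero (hE0 i (Or.inr hi))
  have hPf : ∀ i, Module.Flat (Y.presheaf.stalk ((j ≫ f) u)) (P.X i) := fun i => by
    have h1 := PerfC.RelFlat.isFlatOver_of_isFlat f (hLf i) (j u)
    exact (Ega3B.FlatRestrict.isFlatOverAt_restrict_iff_comp f j (L.X i) u).mpr h1
  have hQf : ∀ i, Module.Flat (Y.presheaf.stalk ((j ≫ f) u)) (Q.X i) := fun i => hEf i u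
  obtain ⟨h, hha⟩ : ∃ h, h + 1 = a := ⟨a - 1, by omega⟩
  have key := Flat2C.TorAmpRestr.flat_cok_iff_of_iso b P Q hP0 hQ0 hPf hQf e1 hha
  have hQc : Module.Flat (Y.presheaf.stalk ((j ≫ f) u)) (Flat2C.TorAmpCone.Cok Q h a) := by
    have := hQf a
    have h0 : IsZero (Q.X h) := G.map_isZero (hE0 h (Or.inl (by omega)))
    have hs : Subsingleton (Q.X h) := ModuleCat.subsingleton_of_isZero h0
    have hr : LinearMap.range (Q.d h a).hom = ⊥ := by
      rw [LinearMap.range_eq_bot]
      ext x
      rw [Subsingleton.elim x 0, map_zero, map_zero]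
    exact Module.Flat.of_linearEquiv (Submodule.quotEquivOfEqBot _ hr)
  have hPc := key.mpr hQc
  obtain ⟨e2⟩ := Flat2C.TorAmpRestr.nonempty_opcycles_equiv P hha
  have h3 : Module.Flat (Y.presheaf.stalk ((j ≫ f) u)) (P.opcycles a) := Module.Flat.of_linearEquiv e2
  let e4 : P.opcycles a ≅ G.obj ((L.opcycles a).restrict j) :=
    mapOpcycles G L' a ≪≫ G.mapIso (mapOpcycles (Scheme.Modules.restrictFunctor j) L a)
  exact Module.Flat.of_linearEquiv e4.symm.toLinearEquiv

/-- Vanishing of cohomology sheaves is local. -/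
theorem isZero_HD_of_cover (K : DCoh.D X) (i : ℤ)
    (h : ∀ x : X, ∃ (U : Scheme.{u}) (j : U ⟶ X) (_ : IsOpenImmersion j), x ∈ Set.range j ∧
      IsZero (DCoh.HD ((DCoh.restrictD j).obj K) i)) : IsZero (DCoh.HD K i) := by
  refine isZero_of_subsingleton _ fun x => ?_
  obtain ⟨U, j, hj, ⟨u, rfl⟩, h⟩ := h x
  have h1 : IsZero ((DCoh.HD K i).restrict j) := h.of_iso (HDRestrict j K i).symm
  have h2 := subsingleton_of_isZero h1 u
  exact (Ega3B.FlatRestrict.stalkEquiv j (DCoh.HD K i) u).symm.toEquiv.subsingleton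

theorem isZero_HD_toD {a b : ℤ} {E : CochainComplex U.Modules ℤ} (hE : DCoh.VanishesOutside E a b) (i : ℤ)
    (hi : i < a ∨ b < i) : IsZero (DCoh.HD (DCoh.toD U E) i) :=
  ((HomologicalComplex.ExactAt.of_isZero (hE i hi)).isZero_homology).of_iso
    ((DerivedCategory.homologyFunctorFactors U.Modules i).app E)

/-- Relative flat amplitude in `[a, b]` is local on the source, for a flat morphism. -/
theorem hasRelFlatAmplitudeIn_of_cover (f : X ⟶ Y) [Flat f] {a b : ℤ} (K : DCoh.D X)
    (h : ∀ x : X, ∃ (U : Scheme.{u}) (j : U ⟶ X) (_ : IsOpenImmersion j), x ∈ Set.range j ∧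
      DCoh.HasRelFlatAmplitudeIn (j ≫ f) a b ((DCoh.restrictD j).obj K)) :
    DCoh.HasRelFlatAmplitudeIn f a b K := by
  have hz : ∀ i, (i < a ∨ b < i) → IsZero (DCoh.HD K i) := by
    intro i hi
    refine isZero_HD_of_cover K i fun x => ?_
    obtain ⟨U, j, hj, hx, E, hE, -, ⟨e⟩⟩ := h x
    exact ⟨U, j, hj, hx, (isZero_HD_toD hE i hi).of_iso
      ((DerivedCategory.homologyFunctor _ i).mapIso e.symm)⟩
  obtain ⟨L, h1, h2, ⟨e⟩⟩ := Dcoh.TorAmp.exists_flat_rep K b (fun i hi => hz i (Or.inr hi))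
  have hL0 : ∀ i, b < i → IsZero (L.X i) := fun i hi => L.isZero_of_isStrictlyLE b i hi
  have h4 : FlatMod.IsFlatOver f (L.opcycles a) := by
    intro x
    obtain ⟨U, j, hj, ⟨u, rfl⟩, E, hE, hEf, ⟨e'⟩⟩ := h x
    exact isFlatOverAt_opcycles f L hL0 h2 j E hE hEf (e' ≪≫ (DCoh.restrictD j).mapIso e.symm) u
  have hGE : L.IsGE a := by
    rw [CochainComplex.isGE_iff]
    intro i hi
    rw [HomologicalComplex.exactAt_iff_isZero_homology]
    exact (hz i (Or.inl hi)).of_iso
      (((DerivedCategory.homologyFunctorFactors X.Modules i).app L).symm ≪≫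
        (DerivedCategory.homologyFunctor _ i).mapIso e)
  refine ⟨L.truncGE a, ?_, ?_, ⟨(asIso (DerivedCategory.Q.map (L.πTruncGE a))).symm ≪≫ e⟩⟩
  · rintro i (hi | hi)
    · exact (L.truncGE a).isZero_of_isStrictlyGE a i hi
    · rcases lt_trichotomy i a with h | h | h
      · exact (L.truncGE a).isZero_of_isStrictlyGE a i h
      · subst h
        refine IsZero.of_iso ?_ (L.truncGEXIsoOpcycles i)
        exact IsZero.of_epi (L.pOpcycles i) (hL0 i hi)
      · exact (hL0 i hi).of_iso (L.truncGEXIso a i h)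
  · intro i
    rcases lt_trichotomy i a with hi | rfl | hi
    · exact PerfC.RelFlat.isFlatOver_of_isZero f ((L.truncGE a).isZero_of_isStrictlyGE a i hi)
    · exact PerfC.RelFlat.isFlatOver_of_iso f (L.truncGEXIsoOpcycles i).symm h4
    · exact PerfC.RelFlat.isFlatOver_of_iso f (L.truncGEXIso a i hi).symm
        (PerfC.RelFlat.isFlatOver_of_isFlat f (h2 i))

end Groth.Agent.Dual.H316.RelFlatCover
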